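import Cfsg.Agent.Lib.CharSquareAb.PGroup
import Cfsg.Agent.Lib.LargeExtra.Structure
import Cfsg.Agent.Lib.LocalFusion.Balance
import Cfsg.Agent.Lib.Components.Orbit
import Cfsg.Agent.Lib.Transfer.Tate
import Cfsg.Agent.Lib.Hall.Solvable

/-!
# Elements with small centraliser when the Sylow abelianisation has order `p ^ 2`
-/

set_option autoImplicit false
set_option linter.unusedSectionVars false
set_option linter.style.haveILetI false

open scoped commutatorElement

namespace Cfsg.Agent.Lib.CharSquareAb

open Subgroup Cfsg Cfsg.Agent.Lib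

variable {G : Type*} [Group G] [Finite G] {p : ℕ} [hp : Fact p.Prime] (P : Sylow p G)

theorem sylow_conj_le {R : Subgroup G} (hR : IsPGroup p R) :
    ∃ g : G, ∀ r ∈ R, g * r * g⁻¹ ∈ (P : Subgroup G) := by
  obtain ⟨U, hU⟩ := hR.exists_le_sylow
  obtain ⟨g, rfl⟩ := MulAction.exists_smul_eq G U P
  refine ⟨g, fun r hr => ?_⟩
  rw [Transfer.mem_smul_sylow]
  simpa [mul_assoc] using hU hr

/-- From centralisers in the Sylow subgroup to the centraliser in the group. -/
theorem factorization_centralizer (x : (P : Subgroup G))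
    (hx : ∀ (g : G) (h : g * (x : G) * g⁻¹ ∈ (P : Subgroup G)),
      Nat.card (centralizer ({(⟨_, h⟩ : (P : Subgroup G))} : Set (P : Subgroup G))) = p ^ 2) :
    (Nat.card (centralizer ({(x : G)} : Set G))).factorization p = 2 := by
  set C := centralizer ({(x : G)} : Set G) with hC
  have h1 := hx 1 (by simpa using x.2)
  have hlow : p ^ 2 ∣ Nat.card C := by
    rw [← h1]
    refine dvd_trans ?_ (card_dvd_of_le (show (centralizer
      ({(⟨_, (by simpa using x.2 : (1 : G) * (x : G) * 1⁻¹ ∈ (P : Subgroup G))⟩ : (P : Subgroup G))} :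
        Set (P : Subgroup G))).map (P : Subgroup G).subtype ≤ C from ?_))
    · rw [card_map_of_injective (P : Subgroup G).subtype_injective]
    · rintro _ ⟨y, hy, rfl⟩
      have := congrArg Subtype.val (mem_centralizer_singleton_iff.1 hy)
      rw [hC, mem_centralizer_singleton_iff]
      simpa using this
  have hup : (Nat.card C).factorization p ≤ 2 := by
    obtain ⟨R⟩ := (inferInstance : Nonempty (Sylow p C))
    have hxR : (⟨(x : G), mem_centralizer_singleton_iff.2 rfl⟩ : C) ∈ (R : Subgroup C) := by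
      obtain ⟨k, hk⟩ := P.2 x
      set c₀ : C := ⟨(x : G), mem_centralizer_singleton_iff.2 rfl⟩ with hc₀
      haveI : (zpowers c₀).Normal := by
        refine ⟨fun z hz c => ?_⟩
        obtain ⟨i, rfl⟩ := hz
        have hc : Commute c c₀ := Subtype.ext (mem_centralizer_singleton_iff.1 c.2)
        exact ⟨i, by rw [(hc.zpow_right i).eq, mul_inv_cancel_right]⟩
      have hz : IsPGroup p (zpowers c₀) := IsPGroup.of_card_dvd_pow (n := k) (by
        rw [Nat.card_zpowers]
        exact orderOf_dvd_of_pow_eq_one (Subtype.ext (by simpa using congrArg Subtype.val hk)))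
      exact (R.3 (R.2.to_sup_of_normal_right hz) le_sup_left).le
        (le_sup_right (a := (R : Subgroup C)) (mem_zpowers _))
    obtain ⟨g, hg⟩ := sylow_conj_le P (R.2.map C.subtype)
    have hgx := hg _ ⟨_, hxR, rfl⟩
    have h2 := hx g hgx
    have hle : Nat.card (R : Subgroup C) ≤ p ^ 2 := by
      rw [← h2]
      refine Nat.card_le_card_of_injective
        (fun r => ⟨⟨g * ((r : C) : G) * g⁻¹, hg _ ⟨_, r.2, rfl⟩⟩, ?_⟩) fun a b h => ?_
      · rw [mem_centralizer_singleton_iff]
        refine Subtype.ext ?_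
        show g * ((r : C) : G) * g⁻¹ * (g * (x : G) * g⁻¹) = g * (x : G) * g⁻¹ * (g * ((r : C) : G) * g⁻¹)
        have hcomm : ((r : C) : G) * x = x * ((r : C) : G) := mem_centralizer_singleton_iff.1 r.1.2
        calc g * ((r : C) : G) * g⁻¹ * (g * (x : G) * g⁻¹) = g * (((r : C) : G) * x) * g⁻¹ := by group
          _ = g * ((x : G) * ((r : C) : G)) * g⁻¹ := by rw [hcomm]
          _ = _ := by group
      · have h' : g * ((a : C) : G) * g⁻¹ = g * ((b : C) : G) * g⁻¹ :=
          congrArg (fun z => (z.1 : G)) h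
        exact Subtype.ext (Subtype.ext (mul_left_cancel (mul_right_cancel h')))
    rw [R.card_eq_multiplicity] at hle
    exact (Nat.pow_le_pow_iff_right hp.out.one_lt).1 hle
  exact le_antisymm hup ((hp.out.pow_dvd_iff_le_factorization Nat.card_pos.ne').1 hlow)

/-- A perfect subgroup of order divisible by `p` normalised by `P` is not inside `P'`. -/
theorem not_le_commutator {K : Subgroup G} (hK : ⁅K, K⁆ = K)
    (hPK : (P : Subgroup G) ≤ normalizer (K : Set G)) (hpK : p ∣ Nat.card K) :
    ¬ K.subgroupOf (P : Subgroup G) ≤ commutator (P : Subgroup G) := by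
  intro hle
  set X := normalizer (K : Set G)
  haveI : (K.subgroupOf X).Normal := normal_in_normalizer
  set P' := P.subtype hPK with hP'
  have hmap : (P' : Subgroup X).map X.subtype = (P : Subgroup G) := by
    rw [hP', Sylow.coe_subtype, subgroupOf_map_subtype, inf_eq_left.2 hPK]
  have h : K.subgroupOf X ⊓ (P' : Subgroup X) ≤
      (frattini (P' : Subgroup X)).map (P' : Subgroup X).subtype := by
    intro z hz
    have hzP : (z : G) ∈ (P : Subgroup G) := hmap ▸ mem_map_of_mem X.subtype hz.2
    have hzK : (⟨z, hzP⟩ : (P : Subgroup G)) ∈ K.subgroupOf (P : Subgroup G) := hz.1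
    have h3 : (z : G) ∈ ⁅(P : Subgroup G), (P : Subgroup G)⁆ := by
      rw [← map_subtype_commutator]; exact ⟨_, hle hzK, rfl⟩
    rw [← hmap, ← map_commutator] at h3
    obtain ⟨z', hz', hzz⟩ := h3
    obtain rfl : z' = z := Subtype.ext hzz
    have h3 := hz'
    rw [← map_subtype_commutator] at h3
    exact map_mono (PGroupFrattini.commutator_le_frattini P'.2) h3
  have hnpc := Transfer.tate P' (K.subgroupOf X) h
  rw [Transfer.hasNormalPComplement_iff] at hnpc
  have hKX : K ≤ X := le_normalizer
  have hperf : commutator ↥(K.subgroupOf X) = ⊤ := by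
    refine map_injective (K.subgroupOf X).subtype_injective ?_
    rw [map_subtype_commutator, ← MonoidHom.range_eq_map, range_subtype]
    refine map_injective X.subtype_injective ?_
    rw [map_commutator, subgroupOf_map_subtype, inf_eq_left.2 hKX, hK]
  have htop : pResidual p ↥(K.subgroupOf X) = ⊤ := by
    by_contra hne
    haveI : Nontrivial (↥(K.subgroupOf X) ⧸ pResidual p ↥(K.subgroupOf X)) :=
      QuotientGroup.nontrivial_iff.2 hne
    have hq : IsPGroup p (↥(K.subgroupOf X) ⧸ pResidual p ↥(K.subgroupOf X)) :=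
      Transfer.isPGroup_quotient_pResidual
    haveI := hq.isNilpotent
    refine (Group.IsSolvable.commutator_lt_top_of_nontrivial
      (↥(K.subgroupOf X) ⧸ pResidual p ↥(K.subgroupOf X))).ne ?_
    rw [_root_.commutator_def, ← map_top_of_surjective (QuotientGroup.mk' (pResidual p ↥(K.subgroupOf X)))
      (QuotientGroup.mk'_surjective _), ← map_commutator, ← commutator_def, hperf]
  refine hnpc ?_
  rw [htop, card_top, Nat.card_congr (subgroupOfEquivOfLe hKX).toEquiv]
  exact hpK

section Fitting

variable (hF : fittingSubgroup G = ⊥)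

include hF

theorem eq_one_of_centralizes {x : G} (h : ∀ L : Subgroup G, IsComponent L → ∀ l ∈ L, x * l = l * x) :
    x = 1 := by
  have hle : zpowers x ≤ fittingSubgroup G := by
    refine Components.le_fitting_of_centralize (fun L hL => ?_) ?_
    · rw [commutator_eq_bot_iff_le_centralizer]
      intro l hl
      refine mem_centralizer_iff.2 fun z hz => ?_
      obtain ⟨i, rfl⟩ := hz
      exact ((show Commute x l from h L hL l hl).zpow_left i).eq
    · rw [hF, commutator_bot_left]
  rw [hF] at hle
  exact mem_bot.1 (hle (mem_zpowers x))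

theorem exists_component (hG : Nat.card G ≠ 1) : ∃ L : Subgroup G, IsComponent L := by
  by_contra h
  push Not at h
  haveI : Nontrivial G := Finite.one_lt_card_iff_nontrivial.1 (by
    have := Nat.card_pos (α := G); omega)
  obtain ⟨x, hx⟩ := exists_ne (1 : G)
  exact hx (eq_one_of_centralizes hF fun L hL => absurd hL (h L))

/-- A normal component forces an almost simple group. -/
theorem not_normal_of_unique (hnas : ¬ ∃ S : Subgroup G, S.Normal ∧ IsSimpleGroup S ∧
      ¬ IsMulCommutative S ∧ centralizer (S : Set G) = ⊥)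
    {L : Subgroup G} (hL : IsComponent L) (huniq : ∀ M : Subgroup G, IsComponent M → M = L) : False := by
  obtain ⟨hs, hna, -⟩ := LargeExtra.Structure.comp_simple hF hL
  refine hnas ⟨L, ⟨fun n hn g => ?_⟩, hs, hna, eq_bot_iff.2 fun x hx => mem_bot.2
    (eq_one_of_centralizes hF fun M hM l hl => ?_)⟩
  · rw [← huniq _ (LargeExtra.Structure.conj_comp hL g)]
    exact ⟨n, hn, rfl⟩
  · rw [huniq M hM] at hl
    exact (mem_centralizer_iff.1 hx l hl).symm

/-- The projection of the layer onto a component. -/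
noncomputable def proj {L : Subgroup G} (hL : IsComponent L) : layer G →* L :=
  MonoidHom.mk'
    (fun e => ⟨(LargeExtra.Structure.split hL e.2).choose,
      (LargeExtra.Structure.split hL e.2).choose_spec.1⟩)
    fun e e' => by
      obtain ⟨ha, r, hr, he⟩ := (LargeExtra.Structure.split hL e.2).choose_spec
      obtain ⟨ha', r', hr', he'⟩ := (LargeExtra.Structure.split hL e'.2).choose_spec
      obtain ⟨hA, R, hR, hE⟩ := (LargeExtra.Structure.split hL (e * e').2).choose_spec
      refine Subtype.ext (LargeExtra.Structure.split_unique hF hL hA hR (mul_mem ha ha') (mul_mem hr hr') ?_).1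
      rw [← hE]
      show (e : G) * (e' : G) = _
      conv_lhs => rw [he, he']
      have hc := LargeExtra.Structure.commute_rest hL ha' hr
      simp only [mul_assoc]
      congr 1
      rw [← mul_assoc, ← hc, mul_assoc]

theorem proj_spec {L : Subgroup G} (hL : IsComponent L) {e : layer G} {a r : G} (ha : a ∈ L)
    (hr : r ∈ LargeExtra.Structure.rest L) (he : (e : G) = a * r) : (proj hF hL e : G) = a := by
  obtain ⟨hA, R, hR, hE⟩ := (LargeExtra.Structure.split hL e.2).choose_spec
  exact (LargeExtra.Structure.split_unique hF hL hA hR ha hr (hE.symm.trans he)).1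

theorem mem_rest_of_proj {L : Subgroup G} (hL : IsComponent L) {e : layer G} (h : proj hF hL e = 1) :
    (e : G) ∈ LargeExtra.Structure.rest L := by
  obtain ⟨-, R, hR, hE⟩ := (LargeExtra.Structure.split hL e.2).choose_spec
  have h' : (LargeExtra.Structure.split hL e.2).choose = 1 := congrArg Subtype.val h
  rw [hE, h', one_mul]
  exact hR

end Fitting

/-- An element of `P` with small centraliser. -/
theorem exists_small_centralizer (hcore : pPrimeCore p G = ⊥)
    (hcore' : (⁅(P : Subgroup G), (P : Subgroup G)⁆).normalCore = ⊥)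
    (hnas : ¬ ∃ S : Subgroup G, S.Normal ∧ IsSimpleGroup S ∧ ¬ IsMulCommutative S ∧
      centralizer (S : Set G) = ⊥)
    (hD : (commutator (P : Subgroup G)).index = p ^ 2) :
    ∃ x : G, (∃ k : ℕ, orderOf x = p ^ k) ∧
      (Nat.card (centralizer ({x} : Set G))).factorization p = 2 := by
  classical
  have hT : IsPGroup p (P : Subgroup G) := P.2
  by_cases hsmall : Nat.card (P : Subgroup G) = p ^ 2
  · refine ⟨1, ⟨0, by simp⟩, ?_⟩
    rw [show centralizer ({(1 : G)} : Set G) = ⊤ from eq_top_iff.2 fun g _ =>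
      mem_centralizer_singleton_iff.2 (by simp), card_top]
    rw [P.card_eq_multiplicity] at hsmall
    exact Nat.pow_right_injective hp.out.two_le hsmall
  -- a normal subgroup of index `p` with good centralisers suffices
  suffices h : ∃ (N : Subgroup G), N.Normal ∧ (N.subgroupOf (P : Subgroup G)).index = p ∧
      ∀ a ∈ N.subgroupOf (P : Subgroup G), ∀ b ∈ N.subgroupOf (P : Subgroup G), a * b = b * a by
    obtain ⟨N, hN, hNi, hNab⟩ := h
    obtain ⟨x, hx⟩ : ∃ x : (P : Subgroup G), x ∉ N.subgroupOf (P : Subgroup G) := by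
      by_contra hc
      push Not at hc
      rw [show N.subgroupOf (P : Subgroup G) = ⊤ from eq_top_iff.2 fun y _ => hc y, index_top] at hNi
      exact hp.out.ne_one hNi.symm
    obtain ⟨k, hk⟩ := IsPGroup.iff_orderOf.1 hT x
    refine ⟨(x : G), ⟨k, by rw [orderOf_coe, hk]⟩,
      factorization_centralizer P x fun g hg => card_centralizer_of_abelian hT hD hNab hNi ?_⟩
    intro hmem
    refine hx ?_
    rw [mem_subgroupOf] at hmem ⊢
    simpa [mul_assoc] using hN.conj_mem _ hmem g⁻¹
  by_cases hO : pCore p G = ⊥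
  swap
  · haveI : (pCore p G).Normal := Hall.pCore_normal p
    obtain ⟨N, hN, hN1, hNle, hNmin⟩ := Hall.exists_minimal_normal_le hO
    have hNp : IsPGroup p N := (Components.pCore_isPGroup p).to_le hNle
    haveI := hNp.isNilpotent
    obtain ⟨hNab, -⟩ := Hall.minimal_normal_solvable N hN1 hNmin
    have hNP : N ≤ (P : Subgroup G) := fun n hn => by
      obtain ⟨g, hg⟩ := sylow_conj_le P hNp
      have := hg _ (hN.conj_mem n hn g⁻¹)
      simpa [mul_assoc] using this
    haveI : (N.subgroupOf (P : Subgroup G)).Normal := hN.subgroupOf _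
    have hnle : ¬ N.subgroupOf (P : Subgroup G) ≤ commutator (P : Subgroup G) := by
      intro h
      refine hN1 (le_bot_iff.1 (hcore' ▸ normal_le_normalCore.2 ?_))
      intro n hn
      rw [← map_subtype_commutator]
      exact ⟨⟨n, hNP hn⟩, h (show (⟨n, hNP hn⟩ : (P : Subgroup G)) ∈ N.subgroupOf _ from hn), rfl⟩
    have hab : ∀ a ∈ N.subgroupOf (P : Subgroup G), ∀ b ∈ N.subgroupOf (P : Subgroup G), a * b = b * a :=
      fun a ha b hb => Subtype.ext (show (a : G) * b = b * a from
        congrArg Subtype.val (hNab.is_comm.comm (⟨a, ha⟩ : N) ⟨b, hb⟩))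
    by_cases htop : N.subgroupOf (P : Subgroup G) = ⊤
    · refine absurd ?_ hsmall
      have hDb : commutator (P : Subgroup G) = ⊥ := by
        rw [_root_.commutator_def, eq_bot_iff, commutator_le]
        intro a _ b _
        rw [mem_bot, commutatorElement_eq_one_iff_mul_comm]
        exact hab a (htop ▸ mem_top a) b (htop ▸ mem_top b)
      rwa [hDb, index_bot] at hD
    exact ⟨N, hN, index_eq_of_not_le hT hD hnle htop, hab⟩
  -- trivial Fitting subgroup
  have hF : fittingSubgroup G = ⊥ := le_bot_iff.1 (hO ▸ LocalFusion.le_pCore_of_fitting hcore)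
  have hG1 : Nat.card G ≠ 1 := fun h => by
    have h1 := card_subgroup_dvd_card (P : Subgroup G)
    rw [h] at h1
    have h2 := Dvd.intro_left _ (commutator (P : Subgroup G)).card_mul_index
    rw [hD, Nat.eq_one_of_dvd_one h1] at h2
    have := Nat.eq_one_of_dvd_one h2
    exact (Nat.one_lt_pow two_ne_zero hp.out.one_lt).ne' this
  have hperfspan : ∀ L : Subgroup G, IsComponent L →
      ⁅Components.orbitSpan (P : Subgroup G) L, Components.orbitSpan (P : Subgroup G) L⁆ =
        Components.orbitSpan (P : Subgroup G) L := fun L hL =>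
    Components.perfect_sSup fun K hK => Components.comp_perfect (Components.orbit_isComponent hL hK)
  -- one orbit of components
  have horb : ∀ L L' : Subgroup G, IsComponent L → IsComponent L' →
      ∃ a ∈ (P : Subgroup G), L' = L.map (MulAut.conj a).toMonoidHom := by
    intro L L' hL hL'
    by_contra hcon
    push Not at hcon
    refine hsmall ?_
    set O₁ := Components.orbitSpan (P : Subgroup G) L with hO₁
    set O₂ := Components.orbitSpan (P : Subgroup G) L' with hO₂
    have hc : ⁅O₂, O₁⁆ = ⊥ := Components.orbitSpan_commute hL hL' hcon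
    haveI : (O₁.subgroupOf (P : Subgroup G)).Normal :=
      normal_subgroupOf_of_le_normalizer (Components.le_normalizer_orbitSpan _ _)
    haveI : (O₂.subgroupOf (P : Subgroup G)).Normal :=
      normal_subgroupOf_of_le_normalizer (Components.le_normalizer_orbitSpan _ _)
    refine card_eq_of_disjoint hT hD (Q₁ := O₁.subgroupOf (P : Subgroup G))
      (Q₂ := O₂.subgroupOf (P : Subgroup G)) ?_ ?_ ?_
    · refine not_le_commutator P (hperfspan L hL) (Components.le_normalizer_orbitSpan _ _) ?_
      exact (Components.comp_dvd_card hcore hL).trans (card_dvd_of_le (Components.le_orbitSpan _ _))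
    · obtain ⟨s, hsP, hsL, hs⟩ := Components.exists_sylow_mem_comp hcore P hL'
      intro h
      have : (⟨s, hsP⟩ : (P : Subgroup G)) ∈ O₂.subgroupOf (P : Subgroup G) :=
        Components.le_orbitSpan _ _ hsL
      rw [h, mem_bot] at this
      exact hs (show s ∈ centralizer (L' : Set G) by
        rw [show s = 1 from congrArg Subtype.val this]; exact one_mem _)
    · rw [eq_bot_iff]
      rintro ⟨z, hzP⟩ ⟨hz1, hz2⟩
      refine mem_bot.2 (Subtype.ext (eq_one_of_centralizes hF fun M hM l hl => ?_))
      rw [commutator_eq_bot_iff_le_centralizer] at hc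
      have hz1' : z ∈ O₁ := hz1
      have hz2' : z ∈ O₂ := hz2
      by_cases hM1 : ∃ a ∈ (P : Subgroup G), M = L.map (MulAut.conj a).toMonoidHom
      · obtain ⟨a, ha, rfl⟩ := hM1
        have hlO : l ∈ O₁ := le_sSup
          (show L.map (MulAut.conj a).toMonoidHom ∈ {M | ∃ b ∈ (P : Subgroup G),
            L.map (MulAut.conj b).toMonoidHom = M} from ⟨a, ha, rfl⟩) hl
        exact (mem_centralizer_iff.1 (hc hz2') l hlO).symm
      · push Not at hM1
        have hc' : ⁅Components.orbitSpan (P : Subgroup G) M, O₁⁆ = ⊥ :=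
          Components.orbitSpan_commute hL hM hM1
        rw [commutator_eq_bot_iff_le_centralizer] at hc'
        exact mem_centralizer_iff.1 (hc' (Components.le_orbitSpan _ _ hl)) z hz1'
  have hnonorm : ∀ L : Subgroup G, IsComponent L → ¬ (P : Subgroup G) ≤ normalizer (L : Set G) := by
    intro L hL hle
    refine not_normal_of_unique hF hnas hL fun M hM => ?_
    obtain ⟨a, ha, rfl⟩ := horb L M hL hM
    exact Components.map_conj_eq_of_mem_normalizer (hle ha)
  haveI : (layer G).Normal := inferInstance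
  refine ⟨layer G, inferInstance, ?_⟩
  set Q0 := (layer G).subgroupOf (P : Subgroup G) with hQ0
  haveI : Q0.Normal := (inferInstance : (layer G).Normal).subgroupOf _
  obtain ⟨L₀, hL₀⟩ := exists_component hF hG1
  have hQ0D : ¬ Q0 ≤ commutator (P : Subgroup G) := not_le_commutator P Components.layer_perfect
    (fun g _ => by rw [normalizer_eq_top]; trivial)
    ((Components.comp_dvd_card hcore hL₀).trans (card_dvd_of_le (Components.comp_le_layer hL₀)))
  have hQ0top : Q0 ≠ ⊤ := fun h => hnonorm L₀ hL₀ fun g hg =>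
    Components.comp_normal_in_layer hL₀ (show (⟨g, hg⟩ : (P : Subgroup G)) ∈ Q0 from h ▸ mem_top _)
  have hQ0i := index_eq_of_not_le hT hD hQ0D hQ0top
  refine ⟨hQ0i, fun a ha b hb => commutatorElement_eq_one_iff_mul_comm.1
    (Subtype.ext (eq_one_of_centralizes hF fun L hL => ?_))⟩
  -- the projection of `Q0` to `L` is abelian
  suffices hcomm : proj hF hL ⟨_, ha⟩ * proj hF hL ⟨_, hb⟩ = proj hF hL ⟨_, hb⟩ * proj hF hL ⟨_, ha⟩ by
    have h1 : proj hF hL ⁅(⟨_, ha⟩ : layer G), ⟨_, hb⟩⁆ = 1 := by
      rw [map_commutatorElement, commutatorElement_eq_one_iff_mul_comm]; exact hcomm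
    exact fun l hl => (LargeExtra.Structure.commute_rest hL hl (mem_rest_of_proj hF hL h1)).symm
  let π : Q0 →* L := (proj hF hL).comp
    { toFun := fun q => ⟨((q : (P : Subgroup G)) : G), q.2⟩
      map_one' := rfl
      map_mul' := fun _ _ => rfl }
  show π ⟨a, ha⟩ * π ⟨b, hb⟩ = π ⟨b, hb⟩ * π ⟨a, ha⟩
  set Q : Subgroup L := (P : Subgroup G).subgroupOf L with hQ
  have hπfix : ∀ (q : L) (hq : q ∈ Q), ∃ h' : (⟨(q : G), hq⟩ : (P : Subgroup G)) ∈ Q0,
      π ⟨_, h'⟩ = q := fun q hq =>
    ⟨Components.comp_le_layer hL q.2, Subtype.ext (proj_spec hF hL q.2 (one_mem _) (mul_one _).symm)⟩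
  have hπQ : π.range ≤ Q := by
    have hQr : Q ≤ π.range := fun q hq => by
      obtain ⟨h', h''⟩ := hπfix q hq
      exact ⟨_, h''⟩
    refine relIndex_eq_one.1 ?_
    obtain ⟨n, hn⟩ := ((hT.to_subgroup Q0).of_surjective π.rangeRestrict π.rangeRestrict_surjective).exists_card_eq
    obtain ⟨i, -, hi⟩ := (Nat.dvd_prime_pow hp.out).1 (hn ▸ index_dvd_card (Q.subgroupOf π.range))
    have hd : Q.relIndex π.range ∣ Q.index := Dvd.intro _ (relIndex_mul_index hQr)
    cases i with
    | zero => exact hi.trans (pow_zero p)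
    | succ i =>
      exfalso
      refine Components.sylow_relIndex_subnormal P hL.1 (dvd_trans ?_ hd)
      show p ∣ Q.relIndex π.range
      rw [show Q.relIndex π.range = p ^ (i + 1) from hi]
      exact dvd_pow_self p i.succ_ne_zero
  suffices hQab : ∀ u ∈ Q, ∀ v ∈ Q, u * v = v * u from hQab _ (hπQ ⟨_, rfl⟩) _ (hπQ ⟨_, rfl⟩)
  -- the transfer
  let πQ : Q0 →* Q := π.codRestrict Q fun q => hπQ ⟨q, rfl⟩
  let f : Q0 →* Abelianization Q := Abelianization.of.comp πQ
  obtain ⟨x, hx⟩ : ∃ x : (P : Subgroup G), x ∉ Q0 := by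
    by_contra hc
    push Not at hc
    exact hQ0top (eq_top_iff.2 fun y _ => hc y)
  let W : Q0 →* Abelianization Q := ∏ i ∈ Finset.range p,
    f.comp (MulAut.conjNormal (H := Q0) (x ^ i)).toMonoidHom
  have hxp : x ^ p ∈ Q0 := by
    have h := Q0.pow_index_mem x
    rwa [hQ0i] at h
  have hWx : ∀ q : Q0, W (MulAut.conjNormal x q) = W q := by
    intro q
    simp only [W, MonoidHom.finsetProd_apply, MonoidHom.comp_apply, MulEquiv.coe_toMonoidHom]
    set F : ℕ → Abelianization Q := fun i => f (MulAut.conjNormal (x ^ i) q) with hFdef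
    have e : ∀ i, f (MulAut.conjNormal (x ^ i) (MulAut.conjNormal x q)) = F (i + 1) := fun i => by
      rw [hFdef]
      simp only [pow_succ, map_mul, MulAut.mul_apply]
    have hFp : F p = F 0 := by
      simp only [hFdef, pow_zero, map_one, MulAut.one_apply]
      have e2 : MulAut.conjNormal (x ^ p) q = ⟨x ^ p, hxp⟩ * q * ⟨x ^ p, hxp⟩⁻¹ :=
        Subtype.ext (by rw [MulAut.conjNormal_apply]; rfl)
      rw [e2, map_mul, map_mul, map_inv, mul_comm (f ⟨x ^ p, hxp⟩), mul_inv_cancel_right]
    rw [Finset.prod_congr rfl fun i _ => e i]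
    refine mul_right_cancel (b := F 0) ?_
    rw [← Finset.prod_range_succ']
    rw [Finset.prod_range_succ, hFp]
  set K := W.ker.map Q0.subtype with hK
  have htop : Q0 ⊔ zpowers x = ⊤ := by
    have hlt : Q0 < Q0 ⊔ zpowers x :=
      lt_of_le_of_ne le_sup_left fun he => hx (he ▸ mem_sup_right (mem_zpowers x))
    have hd := relIndex_mul_index hlt.le
    rw [hQ0i] at hd
    rcases (Nat.dvd_prime hp.out).1 (Dvd.intro_left _ hd) with h2 | h2
    · exact index_eq_one.1 h2
    · rw [h2] at hd
      exact absurd (relIndex_eq_one.1 (Nat.eq_of_mul_eq_mul_right hp.out.pos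
        (hd.trans (one_mul p).symm))) (not_le_of_gt hlt)
  have hWinv : ∀ (u : (P : Subgroup G)) (q : Q0), W (MulAut.conjNormal u q) = W q := by
    let S : Subgroup (P : Subgroup G) :=
      { carrier := {u | ∀ q : Q0, W (MulAut.conjNormal u q) = W q}
        one_mem' := fun q => by simp
        mul_mem' := fun {u v} hu hv q => by
          rw [map_mul, MulAut.mul_apply]; exact (hu _).trans (hv q)
        inv_mem' := fun {u} hu q => by
          rw [← hu (MulAut.conjNormal u⁻¹ q), ← MulAut.mul_apply, ← map_mul, mul_inv_cancel, map_one,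
            MulAut.one_apply] }
    have hS : S = ⊤ := by
      rw [eq_top_iff, ← htop, sup_le_iff, zpowers_le]
      refine ⟨fun u hu q => ?_, hWx⟩
      rw [show MulAut.conjNormal u q = ⟨u, hu⟩ * q * ⟨u, hu⟩⁻¹ from
        Subtype.ext (by rw [MulAut.conjNormal_apply]; rfl), map_mul, map_mul, map_inv,
        mul_comm (W ⟨u, hu⟩), mul_inv_cancel_right]
    exact fun u => (hS ▸ mem_top u : u ∈ S)
  haveI hKn : K.Normal := ⟨by
    rintro _ ⟨q, hq, rfl⟩ u
    exact ⟨MulAut.conjNormal u q, (hWinv u q).trans hq, MulAut.conjNormal_apply u q⟩⟩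
  have hDK : commutator (P : Subgroup G) ≤ K := by
    rw [_root_.commutator_def, commutator_le]
    intro u _ v _
    refine (QuotientGroup.eq_one_iff _).1 (?_ : QuotientGroup.mk' K ⁅u, v⁆ = 1)
    rw [map_commutatorElement, commutatorElement_eq_one_iff_mul_comm]
    set r := QuotientGroup.mk' K
    have hcq : ∀ c ∈ Q0, ∀ w : (P : Subgroup G), Commute (r c) (r w) := fun c hc w => by
      refine commutatorElement_eq_one_iff_mul_comm.1 ?_
      rw [← map_commutatorElement]
      refine (QuotientGroup.eq_one_iff _).2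
        ⟨⟨c, hc⟩ * MulAut.conjNormal w ⟨c, hc⟩⁻¹, ?_, ?_⟩
      · show W _ = 1
        rw [map_mul, hWinv, map_inv, mul_inv_cancel]
      · simp [commutatorElement_def, mul_assoc]
    obtain ⟨c, hc, _, ⟨i, rfl⟩, rfl⟩ :=
      mem_sup_of_normal_left.1 (htop ▸ mem_top u : u ∈ Q0 ⊔ zpowers x)
    obtain ⟨d, hd, _, ⟨j, rfl⟩, rfl⟩ :=
      mem_sup_of_normal_left.1 (htop ▸ mem_top v : v ∈ Q0 ⊔ zpowers x)
    simp only [map_mul, map_zpow]
    exact (((hcq c hc d).mul_right ((hcq c hc x).zpow_right j)).mul_left
      (((hcq d hd x).symm.zpow_left i).mul_right ((Commute.refl (r x)).zpow_zpow i j))).eq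
  have hstab : ∀ i, 0 < i → i < p →
      ((x ^ i : (P : Subgroup G)) : G) ∉ normalizer (L : Set G) := by
    intro i hi0 hip hmem
    set St := (normalizer (L : Set G)).subgroupOf (P : Subgroup G) with hSt
    have hle : Q0 ≤ St := fun q hq => Components.comp_normal_in_layer hL hq
    have heq : St = Q0 := by
      have hd := relIndex_mul_index hle
      rw [hQ0i] at hd
      rcases (Nat.dvd_prime hp.out).1 (Dvd.intro_left _ hd) with h2 | h2
      · exact absurd (fun g hg => (index_eq_one.1 h2 ▸ mem_top (⟨g, hg⟩ : (P : Subgroup G)) :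
          (⟨g, hg⟩ : (P : Subgroup G)) ∈ St)) (hnonorm L hL)
      · rw [h2] at hd
        exact le_antisymm (relIndex_eq_one.1 (Nat.eq_of_mul_eq_mul_right hp.out.pos
          (hd.trans (one_mul p).symm))) hle
    have hxi : x ^ i ∈ Q0 := heq ▸ (hmem : x ^ i ∈ St)
    refine hx ?_
    rw [← QuotientGroup.eq_one_iff]
    have h1 : (x : (P : Subgroup G) ⧸ Q0) ^ i = 1 := by
      rw [← QuotientGroup.mk_pow, QuotientGroup.eq_one_iff]; exact hxi
    have h2 : (x : (P : Subgroup G) ⧸ Q0) ^ p = 1 := by
      rw [← QuotientGroup.mk_pow, QuotientGroup.eq_one_iff]; exact hxp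
    have h3 := Nat.dvd_gcd (orderOf_dvd_of_pow_eq_one h1) (orderOf_dvd_of_pow_eq_one h2)
    rw [Nat.Coprime.gcd_eq_one (Nat.coprime_comm.1
      ((hp.out.coprime_iff_not_dvd).2 (Nat.not_dvd_of_pos_of_lt hi0 hip))), Nat.dvd_one] at h3
    exact orderOf_eq_one_iff.1 h3
  have hWQ : Function.Surjective W := by
    intro z
    obtain ⟨q, rfl⟩ : ∃ q : Q, Abelianization.of q = z := by
      induction z using QuotientGroup.induction_on with
      | H q => exact ⟨q, rfl⟩
    obtain ⟨h', h''⟩ := hπfix q.1 q.2
    refine ⟨⟨_, h'⟩, ?_⟩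
    simp only [W, MonoidHom.finsetProd_apply, MonoidHom.comp_apply, MulEquiv.coe_toMonoidHom]
    rw [Finset.prod_eq_single 0]
    · simp only [pow_zero, map_one, MulAut.one_apply]
      exact congrArg Abelianization.of (Subtype.ext h'')
    · intro i hi hi0
      have hne := hstab i (Nat.pos_of_ne_zero hi0) (Finset.mem_range.1 hi)
      set g : G := ((x ^ i : (P : Subgroup G)) : G) with hg
      have hMne : L.map (MulAut.conj g).toMonoidHom ≠ L := fun he =>
        hne (Components.mem_normalizer_of_map_conj_eq he)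
      have hrest : g * (q.1 : G) * g⁻¹ ∈ LargeExtra.Structure.rest L :=
        LargeExtra.Structure.comp_le_rest (LargeExtra.Structure.conj_comp hL g) hMne ⟨_, q.1.2, rfl⟩
      have h1 : π (MulAut.conjNormal (x ^ i) ⟨_, h'⟩) = 1 :=
        Subtype.ext (proj_spec hF hL (one_mem L) hrest (by
          show ((MulAut.conjNormal (x ^ i) (⟨_, h'⟩ : Q0) : (P : Subgroup G)) : G) = 1 * _
          rw [MulAut.conjNormal_apply, one_mul]
          rfl))
      show Abelianization.of (πQ (MulAut.conjNormal (x ^ i) ⟨_, h'⟩)) = 1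
      rw [show πQ (MulAut.conjNormal (x ^ i) ⟨_, h'⟩) = 1 from Subtype.ext h1, map_one]
    · exact fun h => absurd (Finset.mem_range.2 hp.out.pos) h
  have hcard : (commutator Q).index ∣ p := by
    have h1 := index_dvd_of_le hDK
    rw [hK, index_map_subtype, hQ0i, index_ker, MonoidHom.range_eq_top.2 hWQ, card_top, hD, pow_two] at h1
    rw [index_eq_card]
    exact Nat.dvd_of_mul_dvd_mul_right hp.out.pos h1
  have hQp : IsPGroup p Q := hT.comap_subtype
  intro u hu v hv
  have hb := (card_le_of_index_commutator hQp hcard).2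
  have hm : ⁅(⟨u, hu⟩ : Q), ⟨v, hv⟩⁆ ∈ commutator Q :=
    commutator_mem_commutator (mem_top _) (mem_top _)
  rw [hb, mem_bot, commutatorElement_eq_one_iff_mul_comm] at hm
  exact congrArg Subtype.val hm

end Cfsg.Agent.Lib.CharSquareAb
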