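import Cfsg.Agent.Lib.PGroupFrattini
import Mathlib.GroupTheory.SpecificGroups.Cyclic
import Mathlib.GroupTheory.Nilpotent

/-!
# `p`-groups whose abelianisation has order `p ^ 2`
-/

set_option autoImplicit false
set_option linter.unusedSectionVars false

open scoped commutatorElement

namespace Cfsg.Agent.Lib.CharSquareAb

open Subgroup

variable {T : Type*} [Group T] [Finite T] {p : ℕ} [hp : Fact p.Prime]

/-- A subgroup generating modulo the commutator subgroup is the whole group. -/
theorem eq_top_of_sup_commutator (hT : IsPGroup p T) {K : Subgroup T} (h : K ⊔ commutator T = ⊤) :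
    K = ⊤ :=
  frattini_nongenerating (eq_top_iff.2 (h.ge.trans
    (sup_le_sup_left (PGroupFrattini.commutator_le_frattini hT) K)))

/-- An abelianisation of order at most `p` forces order at most `p`. -/
theorem card_le_of_index_commutator (hT : IsPGroup p T) (h : (commutator T).index ∣ p) :
    Nat.card T ∣ p ∧ commutator T = ⊥ := by
  suffices hb : commutator T = ⊥ by
    refine ⟨?_, hb⟩
    rwa [hb, index_bot] at h
  rcases (Nat.dvd_prime hp.out).1 h with h1 | h1
  · have := eq_top_of_sup_commutator hT (K := ⊥) (by rw [bot_sup_eq, index_eq_one.1 h1])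
    rw [eq_bot_iff]
    intro x _
    rw [this]
    trivial
  · obtain ⟨g, hg⟩ : ∃ g, g ∉ commutator T := by
      by_contra hc
      push Not at hc
      rw [show commutator T = ⊤ from eq_top_iff.2 fun x _ => hc x, index_top] at h1
      exact hp.out.ne_one h1.symm
    have htop : zpowers g ⊔ commutator T = ⊤ := by
      have hlt : commutator T < zpowers g ⊔ commutator T :=
        lt_of_le_of_ne le_sup_right fun he => hg (he ▸ mem_sup_left (mem_zpowers g))
      have hd := relIndex_mul_index hlt.le
      rw [h1] at hd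
      rcases (Nat.dvd_prime hp.out).1 (Dvd.intro_left _ hd) with h2 | h2
      · exact index_eq_one.1 h2
      · rw [h2] at hd
        have h3 : (commutator T).relIndex (zpowers g ⊔ commutator T) = 1 :=
          Nat.eq_of_mul_eq_mul_right hp.out.pos (hd.trans (one_mul p).symm)
        exact absurd (relIndex_eq_one.1 h3) (not_le_of_gt hlt)
    have hz := eq_top_of_sup_commutator hT htop
    rw [commutator_def, eq_bot_iff, commutator_le]
    intro a _ b _
    obtain ⟨i, rfl⟩ : a ∈ zpowers g := hz ▸ mem_top a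
    obtain ⟨j, rfl⟩ : b ∈ zpowers g := hz ▸ mem_top b
    rw [mem_bot, commutatorElement_eq_one_iff_mul_comm]
    exact ((Commute.refl g).zpow_zpow i j).eq

variable (hT : IsPGroup p T) (hD : (commutator T).index = p ^ 2)

include hT hD

/-- A proper normal subgroup not below the commutator subgroup has index `p`. -/
theorem index_eq_of_not_le {Q : Subgroup T} [Q.Normal] (hQ : ¬ Q ≤ commutator T) (hQ1 : Q ≠ ⊤) :
    Q.index = p := by
  have hne : Q ⊔ commutator T ≠ ⊤ := fun h => hQ1 (eq_top_of_sup_commutator hT h)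
  have hidx : (Q ⊔ commutator T).index = p := by
    have hd := relIndex_mul_index (le_sup_right : commutator T ≤ Q ⊔ commutator T)
    rw [hD] at hd
    obtain ⟨i, hi, hi'⟩ := (Nat.dvd_prime_pow hp.out).1 (Dvd.intro_left _ hd)
    interval_cases i
    · exact absurd (index_eq_one.1 (by simpa using hi')) hne
    · simpa using hi'
    · rw [hi'] at hd
      have h1 : (commutator T).relIndex (Q ⊔ commutator T) = 1 :=
        Nat.eq_of_mul_eq_mul_right (pow_pos hp.out.pos 2) (hd.trans (one_mul _).symm)
      exact absurd (le_sup_left.trans (relIndex_eq_one.1 h1)) hQ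
  have himg : commutator (T ⧸ Q) = (commutator T).map (QuotientGroup.mk' Q) := by
    rw [commutator_def, commutator_def, map_commutator,
      map_top_of_surjective _ (QuotientGroup.mk'_surjective Q)]
  have hq : (commutator (T ⧸ Q)).index = p := by
    rw [himg, index_map, QuotientGroup.ker_mk', sup_comm, hidx,
      MonoidHom.range_eq_top.2 (QuotientGroup.mk'_surjective Q), index_top, mul_one]
  have hd := (card_le_of_index_commutator (hT.to_quotient Q) (dvd_of_eq hq)).1
  rw [← index_eq_card] at hd
  exact ((Nat.dvd_prime hp.out).1 hd).resolve_left fun h => hQ1 (index_eq_one.1 h)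

/-- Two disjoint nontrivial normal subgroups, one not below the commutator subgroup. -/
theorem card_eq_of_disjoint {Q₁ Q₂ : Subgroup T} [Q₁.Normal] [Q₂.Normal] (h1 : ¬ Q₁ ≤ commutator T)
    (h2 : Q₂ ≠ ⊥) (hdis : Q₁ ⊓ Q₂ = ⊥) : Nat.card T = p ^ 2 := by
  have hne : Q₁ ≠ ⊤ := fun h => h2 (by rwa [h, top_inf_eq] at hdis)
  have hidx := index_eq_of_not_le hT hD h1 hne
  have hsup : Q₁ ⊔ Q₂ = ⊤ := by
    have hd := relIndex_mul_index (le_sup_left : Q₁ ≤ Q₁ ⊔ Q₂)
    rw [hidx] at hd
    rcases (Nat.dvd_prime hp.out).1 (Dvd.intro_left _ hd) with h | h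
    · exact index_eq_one.1 h
    · rw [h] at hd
      have h' : Q₁.relIndex (Q₁ ⊔ Q₂) = 1 :=
        Nat.eq_of_mul_eq_mul_right hp.out.pos (hd.trans (one_mul _).symm)
      have hle : Q₂ ≤ Q₁ := le_sup_right.trans (relIndex_eq_one.1 h')
      exact absurd ((inf_eq_right.2 hle).symm.trans hdis) h2
  have hcomm : ∀ a ∈ Q₁, ∀ b ∈ Q₂, a * b = b * a := fun a ha b hb =>
    commute_of_normal_of_disjoint Q₁ Q₂ inferInstance inferInstance
      (disjoint_iff.2 hdis) a b ha hb
  have hQ2c : Nat.card Q₂ = p := by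
    have h : Q₁.relIndex (Q₁ ⊔ Q₂) = Q₁.relIndex Q₂ := by rw [sup_comm, relIndex_sup_right]
    rw [hsup, relIndex_top_right, hidx, ← inf_relIndex_right, hdis, relIndex_bot_left] at h
    exact h.symm
  have hQ2ab : ∀ a ∈ Q₂, ∀ b ∈ Q₂, a * b = b * a := by
    haveI : IsCyclic Q₂ := isCyclic_of_prime_card hQ2c
    exact fun a ha b hb =>
      congrArg Subtype.val ((IsCyclic.commGroup (α := Q₂)).mul_comm ⟨a, ha⟩ ⟨b, hb⟩)
  have hcen : ∀ b ∈ Q₂, ∀ t : T, Commute t b := by
    intro b hb t
    obtain ⟨a, ha, c, hc, rfl⟩ := mem_sup_of_normal_right.1 (hsup ▸ mem_top t : t ∈ Q₁ ⊔ Q₂)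
    exact (Commute.mul_left (hcomm a ha b hb) (hQ2ab c hc b hb))
  have hDle : commutator T ≤ (commutator Q₁).map Q₁.subtype := by
    rw [map_subtype_commutator, commutator_def, commutator_le]
    intro u _ v _
    obtain ⟨a, ha, c, hc, rfl⟩ := mem_sup_of_normal_right.1 (hsup ▸ mem_top u : u ∈ Q₁ ⊔ Q₂)
    obtain ⟨a', ha', c', hc', rfl⟩ := mem_sup_of_normal_right.1 (hsup ▸ mem_top v : v ∈ Q₁ ⊔ Q₂)
    have e : ⁅a * c, a' * c'⁆ = ⁅a, a'⁆ := by
      rw [commutatorElement_def, commutatorElement_def, mul_inv_rev, mul_inv_rev]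
      calc a * c * (a' * c') * (c⁻¹ * a⁻¹) * (c'⁻¹ * a'⁻¹)
          = a * (c * (a' * c') * c⁻¹) * a⁻¹ * c'⁻¹ * a'⁻¹ := by group
        _ = a * (a' * c') * a⁻¹ * c'⁻¹ * a'⁻¹ := by
            rw [← ((hcen c hc (a' * c'))).eq, mul_inv_cancel_right]
        _ = a * a' * (c' * a⁻¹ * c'⁻¹) * a'⁻¹ := by group
        _ = a * a' * a⁻¹ * a'⁻¹ := by rw [← (hcen c' hc' a⁻¹).eq, mul_inv_cancel_right]
    rw [e]
    exact commutator_mem_commutator ha ha'
  have hQ1i : (commutator Q₁).index ∣ p := by
    have h3 := index_map_subtype (commutator Q₁)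
    rw [hidx] at h3
    have h4 := index_dvd_of_le hDle
    rw [h3, hD, pow_two] at h4
    exact Nat.dvd_of_mul_dvd_mul_right hp.out.pos h4
  have hcard := (card_le_of_index_commutator (hT.to_subgroup Q₁) hQ1i).1
  have hQ1ne : Q₁ ≠ ⊥ := fun h => h1 (h ▸ bot_le)
  have hc : Nat.card Q₁ = p :=
    ((Nat.dvd_prime hp.out).1 hcard).resolve_left fun h => hQ1ne (eq_bot_of_card_eq _ h)
  rw [← Q₁.card_mul_index, hc, hidx, pow_two]

/-- Outside an abelian subgroup of index `p`, centralizers have order `p ^ 2`. -/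
theorem card_centralizer_of_abelian {A : Subgroup T} [A.Normal] (hA : ∀ a ∈ A, ∀ b ∈ A, a * b = b * a)
    (hAi : A.index = p) {x : T} (hx : x ∉ A) :
    Nat.card (centralizer ({x} : Set T)) = p ^ 2 := by
  let f : A →* T :=
    { toFun := fun a => ⁅(a : T), x⁆
      map_one' := by simp
      map_mul' := fun a b => by
        have hb : x * (b : T)⁻¹ * x⁻¹ ∈ A := (inferInstance : A.Normal).conj_mem _ (inv_mem b.2) x
        have hbm : (b : T) * (x * (b : T)⁻¹ * x⁻¹) ∈ A := mul_mem b.2 hb
        have hba : x * (a : T)⁻¹ * x⁻¹ ∈ A := (inferInstance : A.Normal).conj_mem _ (inv_mem a.2) x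
        show ⁅(a : T) * b, x⁆ = ⁅(a : T), x⁆ * ⁅(b : T), x⁆
        simp only [commutatorElement_def, mul_inv_rev]
        calc (a : T) * b * x * ((b : T)⁻¹ * (a : T)⁻¹) * x⁻¹
            = a * ((b : T) * (x * (b : T)⁻¹ * x⁻¹)) * (x * (a : T)⁻¹ * x⁻¹) := by group
          _ = a * ((x * (a : T)⁻¹ * x⁻¹) * ((b : T) * (x * (b : T)⁻¹ * x⁻¹))) := by
              rw [mul_assoc (a : T), hA _ hbm _ hba]
          _ = _ := by group }
  have hrange : f.range = commutator T := by
    refine le_antisymm ?_ ?_
    · rintro _ ⟨a, rfl⟩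
      exact commutator_mem_commutator (mem_top _) (mem_top _)
    have htop : A ⊔ zpowers x = ⊤ := by
      have hlt : A < A ⊔ zpowers x :=
        lt_of_le_of_ne le_sup_left fun he => hx (he ▸ mem_sup_right (mem_zpowers x))
      have hd := relIndex_mul_index hlt.le
      rw [hAi] at hd
      rcases (Nat.dvd_prime hp.out).1 (Dvd.intro_left _ hd) with h2 | h2
      · exact index_eq_one.1 h2
      · rw [h2] at hd
        have h3 : A.relIndex (A ⊔ zpowers x) = 1 :=
          Nat.eq_of_mul_eq_mul_right hp.out.pos (hd.trans (one_mul p).symm)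
        exact absurd (relIndex_eq_one.1 h3) (not_le_of_gt hlt)
    haveI hn : f.range.Normal := by
      rw [← normalizer_eq_top_iff, eq_top_iff, ← htop, sup_le_iff, zpowers_le]
      have key : ∀ g : T, g * x * g⁻¹ = x → ∀ a : A, g * f a * g⁻¹ ∈ f.range := fun g hg a =>
        ⟨⟨g * a * g⁻¹, (inferInstance : A.Normal).conj_mem _ a.2 g⟩, by
          show ⁅g * (a : T) * g⁻¹, x⁆ = g * ⁅(a : T), x⁆ * g⁻¹
          conv_lhs => rw [← hg]
          simp only [commutatorElement_def]
          group⟩
      refine ⟨fun b hb => ?_, ?_⟩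
      · have hfix : ∀ a : A, b * f a * b⁻¹ = f a := fun a => by
          have hm : f a ∈ A := by
            show ⁅(a : T), x⁆ ∈ A
            rw [commutatorElement_def, mul_assoc, mul_assoc, ← mul_assoc x]
            exact mul_mem a.2 ((inferInstance : A.Normal).conj_mem _ (inv_mem a.2) x)
          rw [hA b hb _ hm, mul_inv_cancel_right]
        refine mem_normalizer_iff.2 fun z => ⟨?_, ?_⟩
        · rintro ⟨a, rfl⟩; exact ⟨a, (hfix a).symm⟩
        · rintro ⟨a, ha⟩
          refine ⟨a, ?_⟩
          have := hfix a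
          calc f a = b⁻¹ * (b * f a * b⁻¹) * b := by group
            _ = z := by rw [this, ha]; group
      · refine mem_normalizer_iff.2 fun z => ⟨?_, ?_⟩
        · rintro ⟨a, rfl⟩; exact key x (mul_inv_cancel_right x x) a
        · rintro ⟨a, ha⟩
          have := key x⁻¹ (by group) a
          rw [ha] at this
          convert this using 1
          group
    rw [commutator_def, commutator_le]
    intro u _ v _
    refine (QuotientGroup.eq_one_iff _).1 (?_ : QuotientGroup.mk' f.range ⁅u, v⁆ = 1)
    rw [map_commutatorElement, commutatorElement_eq_one_iff_mul_comm]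
    set q := QuotientGroup.mk' f.range
    have hax : ∀ a ∈ A, Commute (q a) (q x) := fun a ha => by
      refine commutatorElement_eq_one_iff_mul_comm.1 ?_
      rw [← map_commutatorElement]
      exact (QuotientGroup.eq_one_iff _).2 ⟨⟨a, ha⟩, rfl⟩
    obtain ⟨a, ha, _, ⟨i, rfl⟩, rfl⟩ := mem_sup_of_normal_left.1 (htop ▸ mem_top u : u ∈ A ⊔ zpowers x)
    obtain ⟨b, hb, _, ⟨j, rfl⟩, rfl⟩ := mem_sup_of_normal_left.1 (htop ▸ mem_top v : v ∈ A ⊔ zpowers x)
    have hab : Commute (q a) (q b) := by
      show q a * q b = q b * q a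
      rw [← map_mul, ← map_mul, hA a ha b hb]
    simp only [map_mul, map_zpow]
    exact ((hab.mul_right ((hax a ha).zpow_right j)).mul_left
      (((hax b hb).symm.zpow_left i).mul_right ((Commute.refl (q x)).zpow_zpow i j))).eq
  have hker : f.ker = (centralizer ({x} : Set T)).subgroupOf A := by
    ext a
    rw [MonoidHom.mem_ker, mem_subgroupOf, mem_centralizer_singleton_iff]
    exact commutatorElement_eq_one_iff_mul_comm
  have hCA : Nat.card ((centralizer ({x} : Set T)).subgroupOf A) = p := by
    have h := f.ker.card_mul_index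
    rw [index_ker, hrange, hker] at h
    have h2 := A.card_mul_index
    rw [hAi, ← h, ← (commutator T).card_mul_index, hD, pow_two, ← mul_assoc] at h2
    have h3 := Nat.eq_of_mul_eq_mul_right hp.out.pos h2
    rw [mul_comm] at h3
    exact Nat.eq_of_mul_eq_mul_left Nat.card_pos h3
  set C := centralizer ({x} : Set T) with hC
  have hrel : A.relIndex C = p := by
    have h1 : A.relIndex C ∣ p := hAi ▸ relIndex_dvd_index_of_normal A C
    refine ((Nat.dvd_prime hp.out).1 h1).resolve_left fun h => hx ?_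
    exact relIndex_eq_one.1 h (mem_centralizer_singleton_iff.2 rfl)
  have h2 : Nat.card (A.subgroupOf C) = p := by
    rw [← hCA]
    exact Nat.card_congr
      { toFun := fun c => ⟨⟨(c : C), c.2⟩, c.1.2⟩
        invFun := fun a => ⟨⟨(a : A), a.2⟩, a.1.2⟩
        left_inv := fun _ => rfl
        right_inv := fun _ => rfl }
  rw [← (A.subgroupOf C).card_mul_index, h2]
  show p * A.relIndex C = p ^ 2
  rw [hrel, pow_two]

omit hD in
/-- An element with centralizer of order `p ^ 2` gives an abelianisation of order `p ^ 2`. -/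
theorem index_commutator_of_centralizer {x : T} (hx : Nat.card (centralizer ({x} : Set T)) = p ^ 2) :
    (commutator T).index = p ^ 2 := by
  by_cases hcomm : commutator T = ⊥
  · have hC : centralizer ({x} : Set T) = ⊤ := eq_top_iff.2 fun g _ =>
      mem_centralizer_singleton_iff.2 (commutatorElement_eq_one_iff_mul_comm.1
        (mem_bot.1 (hcomm ▸ commutator_mem_commutator (mem_top g) (mem_top x))))
    rw [hcomm, index_bot, ← card_top (G := T), ← hC, hx]
  set C := centralizer ({x} : Set T) with hC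
  have hinj : Nat.card (T ⧸ C) ≤ Nat.card (commutator T) := by
    refine Nat.card_le_card_of_injective
      (fun q => (⟨⁅q.out, x⁆, commutator_mem_commutator (mem_top _) (mem_top _)⟩ : commutator T))
      fun a b h => ?_
    have h' : ⁅a.out, x⁆ = ⁅b.out, x⁆ := congrArg Subtype.val h
    simp only [commutatorElement_def] at h'
    have h2 : a.out * x * a.out⁻¹ = b.out * x * b.out⁻¹ := mul_right_cancel h'
    rw [← Quotient.out_eq a, ← Quotient.out_eq b]
    refine QuotientGroup.eq.2 (mem_centralizer_singleton_iff.2 ?_)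
    calc a.out⁻¹ * b.out * x = a.out⁻¹ * (b.out * x * b.out⁻¹) * b.out := by group
      _ = a.out⁻¹ * (a.out * x * a.out⁻¹) * b.out := by rw [h2]
      _ = x * (a.out⁻¹ * b.out) := by group
  rw [← index_eq_card] at hinj
  have hle : (commutator T).index ≤ p ^ 2 := by
    have h1 := C.card_mul_index
    rw [hx] at h1
    refine Nat.le_of_mul_le_mul_left ?_ (Nat.card_pos (α := commutator T))
    rw [(commutator T).card_mul_index, ← h1, mul_comm (Nat.card (commutator T))]
    exact Nat.mul_le_mul_left _ hinj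
  obtain ⟨k, hk⟩ := hT.index (commutator T)
  rw [hk] at hle ⊢
  have hk2 : k ≤ 2 := (Nat.pow_le_pow_iff_right hp.out.one_lt).1 hle
  interval_cases k
  · exact absurd (card_le_of_index_commutator hT (by simp [hk])).2 hcomm
  · exact absurd (card_le_of_index_commutator hT (by simp [hk])).2 hcomm
  · rfl

end Cfsg.Agent.Lib.CharSquareAb
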